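import Mathlib

set_option autoImplicit false

namespace Cfsg.Agent.Lib.Helper22

open Polynomial

theorem exists_linearEquiv_of_card {K M1 M2 : Type*} [Field K] [Finite K] [AddCommGroup M1]
    [Module K M1] [AddCommGroup M2] [Module K M2] [Finite M1] [Finite M2]
    (hcard : Nat.card M1 = Nat.card M2) (v : M1) (w : M2) (hv : v ≠ 0) (hw : w ≠ 0) :
    ∃ γ : M1 ≃ₗ[K] M2, γ v = w := by
  classical
  have := Fintype.ofFinite K
  have := Fintype.ofFinite M1
  have := Fintype.ofFinite M2
  have h1 := Module.card_eq_pow_finrank (K := K) (V := M1)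
  have h2 := Module.card_eq_pow_finrank (K := K) (V := M2)
  have hfr : Module.finrank K M1 = Module.finrank K M2 := by
    rw [Nat.card_eq_fintype_card, Nat.card_eq_fintype_card, h1, h2] at hcard
    exact Nat.pow_right_injective (Fintype.one_lt_card : 1 < Fintype.card K) hcard
  let γ0 : M1 ≃ₗ[K] M2 := LinearEquiv.ofFinrankEq M1 M2 hfr
  have hv0 : γ0 v ≠ 0 := by simpa using hv
  let f : Submodule.span K {γ0 v} ≃ₗ[K] Submodule.span K {w} :=
    (LinearEquiv.toSpanNonzeroSingleton K M2 (γ0 v) hv0).symm ≪≫ₗ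
      LinearEquiv.toSpanNonzeroSingleton K M2 w hw
  obtain ⟨g, hg⟩ := Submodule.exists_linearEquiv_restrict_eq f
  refine ⟨γ0 ≪≫ₗ g, ?_⟩
  have h3 := hg ⟨γ0 v, Submodule.mem_span_singleton_self _⟩
  have h4 : (LinearEquiv.toSpanNonzeroSingleton K M2 (γ0 v) hv0).symm
      ⟨γ0 v, Submodule.mem_span_singleton_self _⟩ = 1 := by
    rw [LinearEquiv.symm_apply_eq, LinearEquiv.toSpanNonzeroSingleton_one]
  have h5 : f ⟨γ0 v, Submodule.mem_span_singleton_self _⟩ =
      ⟨w, Submodule.mem_span_singleton_self _⟩ := by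
    simp only [f, LinearEquiv.trans_apply, h4, LinearEquiv.toSpanNonzeroSingleton_one]
  rw [h5] at h3
  simp only [LinearEquiv.trans_apply]
  exact h3.symm

theorem irreducible_cyclotomic_of_orderOf {p q : ℕ} [hp : Fact p.Prime] [hq : Fact q.Prime]
    (hpq : p ≠ q) (hord : orderOf (p : ZMod q) = q - 1) :
    Irreducible (cyclotomic q (ZMod p)) := by
  have hpn : ¬ p ∣ q := fun h => hpq ((Nat.prime_dvd_prime_iff_eq hp.out hq.out).1 h)
  apply ZMod.irreducible_of_dvd_cyclotomic_of_natDegree hpn dvd_rfl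
  rw [natDegree_cyclotomic, Nat.totient_prime hq.out, ← hord]
  exact orderOf_injective _ Units.coeHom_injective (ZMod.unitOfCoprime p _)

theorem aeval_cyclotomic_eq_zero {V : Type*} [AddCommGroup V] {p q : ℕ} [Fact p.Prime]
    [hq : Fact q.Prime] [Module (ZMod p) V] (t : Module.End (ZMod p) V) (ht : t ^ q = 1)
    (htf : ∀ u, t u = u → u = 0) : aeval t (cyclotomic q (ZMod p)) = 0 := by
  have h1 : (X - 1) * cyclotomic q (ZMod p) = X ^ q - 1 := by
    rw [mul_comm]; exact cyclotomic_prime_mul_X_sub_one (ZMod p) q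
  have h2 := congrArg (aeval t) h1
  simp only [map_mul, map_sub, aeval_X, map_one, map_pow, ht, sub_self] at h2
  ext u
  apply htf
  have h3 := congrArg (fun f : Module.End (ZMod p) V => f u) h2
  simp only [Module.End.mul_apply, LinearMap.sub_apply, Module.End.one_apply,
    LinearMap.zero_apply] at h3
  exact sub_eq_zero.1 h3

theorem exists_intertwiner_lin {V : Type*} [AddCommGroup V] {p q : ℕ} [hp : Fact p.Prime]
    [hq : Fact q.Prime] [Module (ZMod p) V] [Finite V] (hpq : p ≠ q)
    (hord : orderOf (p : ZMod q) = q - 1) (t t' : Module.End (ZMod p) V) (ht : t ^ q = 1)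
    (htf : ∀ u, t u = u → u = 0) (ht' : t' ^ q = 1) (htf' : ∀ u, t' u = u → u = 0)
    (v w : V) (hv : v ≠ 0) (hw : w ≠ 0) :
    ∃ γ : V ≃+ V, (∀ u, γ (t u) = t' (γ u)) ∧ γ v = w := by
  have hirr := irreducible_cyclotomic_of_orderOf hpq hord
  have : Fact (Irreducible (cyclotomic q (ZMod p))) := ⟨hirr⟩
  have hmon : (cyclotomic q (ZMod p)).Monic := cyclotomic.monic q (ZMod p)
  have := hmon.finite_adjoinRoot
  have : Finite (AdjoinRoot (cyclotomic q (ZMod p))) := Module.finite_of_finite (ZMod p)
  have tors1 : Module.IsTorsionBy (ZMod p)[X] (Module.AEval' t) (cyclotomic q (ZMod p)) := by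
    intro x
    obtain ⟨m, rfl⟩ := (Module.AEval'.of t).surjective x
    rw [← Module.AEval.of_aeval_smul, aeval_cyclotomic_eq_zero t ht htf]
    simp
  have tors2 : Module.IsTorsionBy (ZMod p)[X] (Module.AEval' t') (cyclotomic q (ZMod p)) := by
    intro x
    obtain ⟨m, rfl⟩ := (Module.AEval'.of t').surjective x
    rw [← Module.AEval.of_aeval_smul, aeval_cyclotomic_eq_zero t' ht' htf']
    simp
  letI i1 : Module (AdjoinRoot (cyclotomic q (ZMod p))) (Module.AEval' t) := tors1.module
  letI i2 : Module (AdjoinRoot (cyclotomic q (ZMod p))) (Module.AEval' t') := tors2.module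
  have : Finite (Module.AEval' t) := Finite.of_equiv V (Module.AEval'.of t).toEquiv
  have : Finite (Module.AEval' t') := Finite.of_equiv V (Module.AEval'.of t').toEquiv
  have hcard : Nat.card (Module.AEval' t) = Nat.card (Module.AEval' t') :=
    (Nat.card_congr (Module.AEval'.of t).toEquiv).symm.trans
      (Nat.card_congr (Module.AEval'.of t').toEquiv)
  obtain ⟨γ, hγ⟩ := exists_linearEquiv_of_card (K := AdjoinRoot (cyclotomic q (ZMod p))) hcard
    (Module.AEval'.of t v) (Module.AEval'.of t' w) (by simpa using hv) (by simpa using hw)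
  refine ⟨(Module.AEval'.of t).toAddEquiv.trans
    (γ.toAddEquiv.trans (Module.AEval'.of t').symm.toAddEquiv), ?_, ?_⟩
  · intro u
    have h1 : Module.AEval'.of t (t u) = (AdjoinRoot.root (cyclotomic q (ZMod p))) •
        Module.AEval'.of t u := by
      rw [← Module.AEval'.X_smul_of]
      rfl
    have h2 : ∀ m : Module.AEval' t', (Module.AEval'.of t').symm
        ((AdjoinRoot.root (cyclotomic q (ZMod p))) • m) = t' ((Module.AEval'.of t').symm m) := by
      intro m
      exact Module.AEval'.of_symm_X_smul t' m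
    show (Module.AEval'.of t').symm (γ (Module.AEval'.of t (t u))) =
      t' ((Module.AEval'.of t').symm (γ (Module.AEval'.of t u)))
    rw [h1, map_smul, h2]
  · show (Module.AEval'.of t').symm (γ (Module.AEval'.of t v)) = w
    rw [hγ]; simp

end Cfsg.Agent.Lib.Helper22
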