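import Mathlib
import Cfsg.Agent.Lib.Helper22.AutOrb1

set_option autoImplicit false

namespace Cfsg.Agent.Lib.Helper22

open Polynomial

section

variable {V : Type*} [AddCommGroup V] {p : ℕ} [Module (ZMod p) V]

/-- the cyclic `t`-submodule generated by `u`, as a set -/
def cycSet (t : Module.End (ZMod p) V) (u : V) : Set V := {x | ∃ h : (ZMod p)[X], x = aeval t h u}

theorem semiconj_aeval {β t s : Module.End (ZMod p) V} (h : β * t = s * β) (f : (ZMod p)[X]) :
    β * aeval t f = aeval s f * β := by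
  induction f using Polynomial.induction_on with
  | C a =>
    simp only [aeval_C]
    ext u
    simp [Module.algebraMap_end_apply]
  | add f g hf hg => rw [map_add, map_add, mul_add, add_mul, hf, hg]
  | monomial n a ih =>
    have h1 : SemiconjBy β t s := h
    have h2 : β * t ^ (n + 1) = s ^ (n + 1) * β := h1.pow_right (n + 1)
    simp only [map_mul, aeval_C, map_pow, aeval_X]
    ext u
    have h3 := congrArg (fun φ : Module.End (ZMod p) V => φ u) h2
    simp only [Module.End.mul_apply] at h3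
    simp [Module.algebraMap_end_apply, h3]

theorem ncard_cycSet_le [Finite V] {β t : Module.End (ZMod p) V} (hβ : Function.Injective β) {k : ℕ}
    (h : β * t = t ^ k * β) (u : V) : (cycSet t u).ncard ≤ (cycSet t (β u)).ncard := by
  rw [← Set.ncard_image_of_injective _ hβ]
  apply Set.ncard_le_ncard _ (Set.toFinite _)
  rintro _ ⟨x, ⟨f, rfl⟩, rfl⟩
  refine ⟨f.comp (X ^ k), ?_⟩
  have h1 := congrArg (fun φ : Module.End (ZMod p) V => φ u) (semiconj_aeval h f)
  simp only [Module.End.mul_apply] at h1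
  rw [h1, aeval_comp, map_pow, aeval_X]

theorem cycSet_subset {t : Module.End (ZMod p) V} {u v : V} (h : v ∈ cycSet t u) :
    cycSet t v ⊆ cycSet t u := by
  obtain ⟨f, rfl⟩ := h
  rintro _ ⟨g, rfl⟩
  exact ⟨g * f, by rw [map_mul, Module.End.mul_apply]⟩

end

theorem irreducible_minpoly_of_transitive {V : Type*} [AddCommGroup V] {p q : ℕ} [hp : Fact p.Prime]
    [hq : Fact q.Prime] [Module (ZMod p) V] [Finite V] [Nontrivial V] (hpq : p ≠ q)
    (t : Module.End (ZMod p) V) (ht : t ^ q = 1)
    (S : Set (Module.End (ZMod p) V)) (hSinj : ∀ β ∈ S, Function.Injective β)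
    (hS : ∀ β ∈ S, ∃ k : ℕ, β * t = t ^ k * β)
    (htrans : ∀ v w : V, v ≠ 0 → w ≠ 0 → ∃ β ∈ S, β v = w) :
    Irreducible (minpoly (ZMod p) t) := by
  have hfin : Module.Finite (ZMod p) V := Module.Finite.of_finite
  have hint : IsIntegral (ZMod p) t := Algebra.IsIntegral.isIntegral t
  have hμ0 : minpoly (ZMod p) t ≠ 0 := minpoly.ne_zero hint
  have hμu : ¬ IsUnit (minpoly (ZMod p) t) := minpoly.not_isUnit (ZMod p) t
  obtain ⟨f, hf, g, hfg⟩ := WfDvdMonoid.exists_irreducible_factor hμu hμ0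
  by_cases hg : IsUnit g
  · rw [hfg]
    exact (irreducible_mul_isUnit hg).2 hf
  exfalso
  have hdvd : minpoly (ZMod p) t ∣ X ^ q - C 1 := by
    apply minpoly.dvd
    simp [ht]
  have hsep : (X ^ q - C (1 : ZMod p)).Separable := by
    apply separable_X_pow_sub_C' p q 1 _ one_ne_zero
    exact fun h => hpq ((Nat.prime_dvd_prime_iff_eq hp.out hq.out).1 h)
  have hsep2 : (f * g).Separable := by
    rw [← hfg]; exact hsep.of_dvd hdvd
  obtain ⟨a, b, hab⟩ := hsep2.isCoprime
  have hprod : aeval t f * aeval t g = 0 := by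
    rw [← map_mul, ← hfg]; exact minpoly.aeval _ _
  have hg0 : g ≠ 0 := by rintro rfl; simp at hfg; exact hμ0 hfg
  have hf0 : f ≠ 0 := hf.ne_zero
  -- kernels are nonzero
  have hkf : ∃ v : V, v ≠ 0 ∧ aeval t f v = 0 := by
    by_contra hcon
    push Not at hcon
    have h1 : aeval t g = 0 := by
      ext u
      by_contra hu
      apply hcon _ hu
      have := congrArg (fun φ : Module.End (ZMod p) V => φ u) hprod
      simpa using this
    have h2 := minpoly.dvd (ZMod p) t h1
    rw [hfg] at h2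
    have h3 : f * g ∣ 1 * g := by rwa [one_mul]
    have h4 := (mul_dvd_mul_iff_right hg0).1 h3
    exact hf.not_isUnit (isUnit_of_dvd_one h4)
  have hkg : ∃ w : V, w ≠ 0 ∧ aeval t g w = 0 := by
    by_contra hcon
    push Not at hcon
    have h1 : aeval t f = 0 := by
      ext u
      by_contra hu
      apply hcon _ hu
      have hprod' : aeval t g * aeval t f = 0 := by
        rw [← map_mul, mul_comm, ← hfg]; exact minpoly.aeval _ _
      have := congrArg (fun φ : Module.End (ZMod p) V => φ u) hprod'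
      simpa using this
    have h2 := minpoly.dvd (ZMod p) t h1
    rw [hfg] at h2
    have h3 : f * g ∣ f * 1 := by rwa [mul_one]
    have h4 := (mul_dvd_mul_iff_left hf0).1 h3
    exact hg (isUnit_of_dvd_one h4)
  obtain ⟨v, hv0, hv⟩ := hkf
  obtain ⟨w, hw0, hw⟩ := hkg
  have hone : ∀ u : V, aeval t (a * f) u + aeval t (b * g) u = u := by
    intro u
    have := congrArg (fun φ : (ZMod p)[X] => aeval t φ u) hab
    simpa using this
  have haf : ∀ u : V, aeval t f u = 0 → aeval t (a * f) u = 0 := by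
    intro u hu; rw [map_mul, Module.End.mul_apply, hu, map_zero]
  have hbg : ∀ u : V, aeval t g u = 0 → aeval t (b * g) u = 0 := by
    intro u hu; rw [map_mul, Module.End.mul_apply, hu, map_zero]
  have hfw : aeval t f w ≠ 0 := by
    intro h
    apply hw0
    rw [← hone w, haf w h, hbg w hw, add_zero]
  have hu0 : v + w ≠ 0 := by
    intro h
    apply hfw
    have : w = -v := by rw [eq_neg_iff_add_eq_zero, add_comm]; exact h
    rw [this, map_neg, hv, neg_zero]
  have hvm : v ∈ cycSet t (v + w) := by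
    refine ⟨b * g, ?_⟩
    rw [map_add, hbg w hw, add_zero]
    have := hone v
    rw [haf v hv, zero_add] at this
    exact this.symm
  have hwm : w ∈ cycSet t (v + w) := by
    refine ⟨a * f, ?_⟩
    rw [map_add, haf v hv, zero_add]
    have := hone w
    rw [hbg w hw, add_zero] at this
    exact this.symm
  have hwn : w ∉ cycSet t v := by
    rintro ⟨h, hh⟩
    apply hfw
    rw [hh, ← Module.End.mul_apply, ← map_mul, mul_comm, map_mul, Module.End.mul_apply, hv, map_zero]
  have hss : cycSet t v ⊂ cycSet t (v + w) :=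
    ⟨cycSet_subset hvm, fun h => hwn (h hwm)⟩
  have hlt := Set.ncard_lt_ncard hss (Set.toFinite _)
  obtain ⟨β, hβS, hβ⟩ := htrans (v + w) v hu0 hv0
  obtain ⟨k, hk⟩ := hS β hβS
  have hle := ncard_cycSet_le (hSinj β hβS) hk (v + w)
  rw [hβ] at hle
  omega

theorem orderOf_eq_of_transitive_lin {V : Type*} [AddCommGroup V] {p q : ℕ} [hp : Fact p.Prime]
    [hq : Fact q.Prime] [Module (ZMod p) V] [Finite V] [Nontrivial V] (hpq : p ≠ q)
    (t : Module.End (ZMod p) V) (ht : t ^ q = 1) (htf : ∀ u, t u = u → u = 0)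
    (S : Set (Module.End (ZMod p) V)) (hSinj : ∀ β ∈ S, Function.Injective β)
    (hS : ∀ β ∈ S, ∃ k : ℕ, β * t = t ^ k * β)
    (htrans : ∀ v w : V, v ≠ 0 → w ≠ 0 → ∃ β ∈ S, β v = w)
    (hfus : ∀ k : ℕ, 0 < k → k < q → ∃ β ∈ S, β * t = t ^ k * β) :
    orderOf (p : ZMod q) = q - 1 := by
  classical
  have hirr := irreducible_minpoly_of_transitive hpq t ht S hSinj hS htrans
  obtain ⟨μ, hμ⟩ : ∃ μ, μ = minpoly (ZMod p) t := ⟨_, rfl⟩
  rw [← hμ] at hirr
  have hdvd : μ ∣ cyclotomic q (ZMod p) := by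
    rw [hμ]; exact minpoly.dvd _ _ (aeval_cyclotomic_eq_zero t ht htf)
  have hcop : p.Coprime q := (Nat.coprime_primes hp.out hq.out).2 hpq
  have hdeg := natDegree_of_dvd_cyclotomic_of_irreducible (K := ZMod p) (p := p) (f := 1) (n := q)
    (by simp) hcop hdvd hirr
  have hord : orderOf (ZMod.unitOfCoprime (p ^ 1) (hcop.pow_left 1)) = orderOf (p : ZMod q) := by
    rw [← orderOf_injective _ Units.coeHom_injective (ZMod.unitOfCoprime (p ^ 1) (hcop.pow_left 1))]
    simp
  rw [hord] at hdeg
  rw [← hdeg]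
  have hle : μ.natDegree ≤ q - 1 := by
    have := natDegree_le_of_dvd hdvd (cyclotomic_ne_zero q (ZMod p))
    rwa [natDegree_cyclotomic, Nat.totient_prime hq.out] at this
  apply le_antisymm hle
  have : Fact (Irreducible μ) := ⟨hirr⟩
  obtain ⟨r, hr⟩ : ∃ r, r = AdjoinRoot.root μ := ⟨_, rfl⟩
  have hrk : ∀ k : ℕ, 0 < k → k < q → aeval (r ^ k) μ = 0 := by
    intro k hk0 hkq
    obtain ⟨β, hβS, hβ⟩ := hfus k hk0 hkq
    have h1 := semiconj_aeval hβ μ
    have h2 : aeval t μ = 0 := by rw [hμ]; exact minpoly.aeval _ _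
    rw [h2, mul_zero] at h1
    have hsurj : Function.Surjective β := Finite.injective_iff_surjective.1 (hSinj β hβS)
    have h3 : aeval (t ^ k) μ = 0 := by
      ext u
      obtain ⟨u', rfl⟩ := hsurj u
      have := congrArg (fun φ : Module.End (ZMod p) V => φ u') h1
      simpa using this.symm
    have h4 : aeval t (μ.comp (X ^ k)) = 0 := by
      rw [aeval_comp, map_pow, aeval_X, h3]
    have h5 : μ ∣ μ.comp (X ^ k) := by
      conv_lhs => rw [hμ]
      exact minpoly.dvd _ _ h4
    have h6 : aeval r (μ.comp (X ^ k)) = 0 := by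
      rw [hr, AdjoinRoot.aeval_eq, AdjoinRoot.mk_eq_zero]; exact h5
    rwa [aeval_comp, map_pow, aeval_X] at h6
  have hrq : r ^ q = 1 := by
    have h1 : μ ∣ X ^ q - 1 := by
      rw [hμ]; apply minpoly.dvd; simp [ht]
    have h2 : aeval r (X ^ q - 1 : (ZMod p)[X]) = 0 := by
      rw [hr, AdjoinRoot.aeval_eq, AdjoinRoot.mk_eq_zero]; exact h1
    simp only [map_sub, map_pow, aeval_X, map_one] at h2
    exact sub_eq_zero.1 h2
  have hr1 : r ≠ 1 := by
    intro h
    have h2 : aeval r (X - 1 : (ZMod p)[X]) = 0 := by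
      simp [h]
    rw [hr, AdjoinRoot.aeval_eq, AdjoinRoot.mk_eq_zero] at h2
    obtain ⟨c, hc⟩ := h2
    have h3 : aeval t (X - 1 : (ZMod p)[X]) = 0 := by
      rw [hc, map_mul, hμ, minpoly.aeval, zero_mul]
    simp only [map_sub, aeval_X, map_one] at h3
    obtain ⟨u, hu⟩ := exists_ne (0 : V)
    apply hu
    apply htf
    have := congrArg (fun φ : Module.End (ZMod p) V => φ u) h3
    simp only [LinearMap.sub_apply, Module.End.one_apply, LinearMap.zero_apply] at this
    exact sub_eq_zero.1 this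
  have hro : orderOf r = q := orderOf_eq_prime hrq hr1
  have hμ0 : μ ≠ 0 := hirr.ne_zero
  have hZ : ((Finset.Icc 1 (q - 1)).image (fun k => r ^ k)).val ⊆
      (μ.map (algebraMap (ZMod p) (AdjoinRoot μ))).roots := by
    intro x hx
    rw [Finset.mem_val, Finset.mem_image] at hx
    obtain ⟨k, hk, rfl⟩ := hx
    rw [Finset.mem_Icc] at hk
    have hq2 := hq.out.two_le
    rw [mem_roots (map_ne_zero hμ0), IsRoot, eval_map_algebraMap]
    exact hrk k (by omega) (by omega)
  have h7 := card_le_degree_of_subset_roots hZ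
  rw [natDegree_map, Finset.card_image_of_injOn, Nat.card_Icc] at h7
  · omega
  · intro a ha b hb hab
    have hq2 := hq.out.two_le
    simp only [Finset.coe_Icc, Set.mem_Icc] at ha hb
    apply pow_injOn_Iio_orderOf (x := r) _ _ hab
    · rw [hro]; simp only [Set.mem_Iio]; omega
    · rw [hro]; simp only [Set.mem_Iio]; omega

end Cfsg.Agent.Lib.Helper22
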