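import Mathlib
import Cfsg.Agent.Lib.Helper22.AutOrb2

set_option autoImplicit false

namespace Cfsg.Agent.Lib.Helper22

/-- the linear map attached to an automorphism of an elementary abelian group -/
noncomputable def linOf {P : Type*} [CommGroup P] (p : ℕ) [Module (ZMod p) (Additive P)] :
    MulAut P →* Module.End (ZMod p) (Additive P) where
  toFun T := AddMonoidHom.toZModLinearMap p (MulEquiv.toAdditive T).toAddMonoidHom
  map_one' := by ext; rfl
  map_mul' := by intros; ext; rfl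

theorem linOf_apply {P : Type*} [CommGroup P] (p : ℕ) [Module (ZMod p) (Additive P)] (T : MulAut P)
    (u : Additive P) : linOf p T u = Additive.ofMul (T u.toMul) := rfl

theorem linOf_semiconj {P : Type*} [CommGroup P] (p : ℕ) [Module (ZMod p) (Additive P)]
    (β T : MulAut P) (k : ℕ) (h : ∀ u, β (T u) = (T ^ k) (β u)) :
    linOf p β * linOf p T = linOf p T ^ k * linOf p β := by
  rw [← map_pow, ← map_mul, ← map_mul]
  congr 1
  ext u
  exact h u

theorem exists_intertwiner {P : Type*} [Group P] [Finite P] (hcomm : ∀ a b : P, a * b = b * a)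
    {p q : ℕ} [Fact p.Prime] [Fact q.Prime] (hpq : p ≠ q) (hexp : ∀ u : P, u ^ p = 1)
    (hord : orderOf (p : ZMod q) = q - 1) (T T' : MulAut P) (hT : T ^ q = 1)
    (hTf : ∀ u, T u = u → u = 1) (hT' : T' ^ q = 1) (hTf' : ∀ u, T' u = u → u = 1)
    (v w : P) (hv : v ≠ 1) (hw : w ≠ 1) :
    ∃ γ : MulAut P, (∀ u, γ (T u) = T' (γ u)) ∧ γ v = w := by
  let _ : CommGroup P := { ‹Group P› with mul_comm := hcomm }
  let _ : Module (ZMod p) (Additive P) := AddCommGroup.zmodModule (fun x => by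
    show Additive.ofMul (x.toMul ^ p) = 0
    rw [hexp]; rfl)
  obtain ⟨γ, h1, h2⟩ := exists_intertwiner_lin hpq hord (linOf p T) (linOf p T')
    (by rw [← map_pow, hT, map_one]) (fun u hu => by
      have : T u.toMul = u.toMul := hu
      exact hTf _ this)
    (by rw [← map_pow, hT', map_one]) (fun u hu => by
      have : T' u.toMul = u.toMul := hu
      exact hTf' _ this)
    (Additive.ofMul v) (Additive.ofMul w) hv hw
  refine ⟨MulEquiv.toAdditive.symm γ, ?_, ?_⟩
  · intro u
    exact h1 (Additive.ofMul u)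
  · exact h2

theorem orderOf_eq_of_transitive {P : Type*} [Group P] [Finite P] [Nontrivial P]
    (hcomm : ∀ a b : P, a * b = b * a)
    {p q : ℕ} [Fact p.Prime] [Fact q.Prime] (hpq : p ≠ q) (hexp : ∀ u : P, u ^ p = 1)
    (T : MulAut P) (hT : T ^ q = 1) (hTf : ∀ u, T u = u → u = 1)
    (S : Set (MulAut P)) (hS : ∀ β ∈ S, ∃ k : ℕ, ∀ u, β (T u) = (T ^ k) (β u))
    (htrans : ∀ v w : P, v ≠ 1 → w ≠ 1 → ∃ β ∈ S, β v = w)
    (hfus : ∀ k : ℕ, 0 < k → k < q → ∃ β ∈ S, ∀ u, β (T u) = (T ^ k) (β u)) :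
    orderOf (p : ZMod q) = q - 1 := by
  let _ : CommGroup P := { ‹Group P› with mul_comm := hcomm }
  let _ : Module (ZMod p) (Additive P) := AddCommGroup.zmodModule (fun x => by
    show Additive.ofMul (x.toMul ^ p) = 0
    rw [hexp]; rfl)
  apply orderOf_eq_of_transitive_lin hpq (linOf p T) (by rw [← map_pow, hT, map_one])
    (fun u hu => by
      have : T u.toMul = u.toMul := hu
      exact hTf _ this) (linOf p '' S)
  · rintro _ ⟨β, _, rfl⟩ a b hab
    have : β a.toMul = β b.toMul := hab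
    exact β.injective this
  · rintro _ ⟨β, hβ, rfl⟩
    obtain ⟨k, hk⟩ := hS β hβ
    exact ⟨k, linOf_semiconj p β T k hk⟩
  · intro v w hv hw
    obtain ⟨β, hβ, h⟩ := htrans v.toMul w.toMul hv hw
    exact ⟨_, ⟨β, hβ, rfl⟩, h⟩
  · intro k hk0 hkq
    obtain ⟨β, hβ, h⟩ := hfus k hk0 hkq
    exact ⟨_, ⟨β, hβ, rfl⟩, linOf_semiconj p β T k h⟩

theorem exists_aut_of_intertwiner {G : Type*} [Group G] [Finite G] (P : Subgroup G) [hP : P.Normal]
    (g g' : G) (hc : P.IsComplement' (Subgroup.zpowers g))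
    (hc' : P.IsComplement' (Subgroup.zpowers g')) (ho : orderOf g = orderOf g')
    (γ : MulAut P) (hγ : ∀ u : P, γ (MulAut.conjNormal g u) = MulAut.conjNormal g' (γ u)) :
    ∃ α : MulAut G, α g = g' ∧ ∀ u : P, α u = γ u := by
  have hnat : ∀ k : Subgroup.zpowers g, ∃ n : ℕ, k = ⟨g ^ n, n, zpow_natCast g n⟩ := by
    rintro ⟨k, hk⟩
    obtain ⟨n, hn⟩ := (isOfFinOrder_of_finite g).mem_powers_iff_mem_zpowers.2 hk
    exact ⟨n, Subtype.ext hn.symm⟩
  let fg : Subgroup.zpowers g ≃* Subgroup.zpowers g' :=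
    { zpowersEquivZPowers ho with
      map_mul' := by
        intro a b
        obtain ⟨m, rfl⟩ := hnat a
        obtain ⟨n, rfl⟩ := hnat b
        have : (⟨g ^ m, m, zpow_natCast g m⟩ : Subgroup.zpowers g) * ⟨g ^ n, n, zpow_natCast g n⟩ =
            ⟨g ^ (m + n), (m + n : ℕ), zpow_natCast g (m + n)⟩ := Subtype.ext (pow_add g m n).symm
        show zpowersEquivZPowers ho _ = zpowersEquivZPowers ho _ * zpowersEquivZPowers ho _
        rw [this, zpowersEquivZPowers_apply, zpowersEquivZPowers_apply, zpowersEquivZPowers_apply]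
        exact Subtype.ext (pow_add g' m n) }
  have hfg : ∀ n : ℕ, fg ⟨g ^ n, n, zpow_natCast g n⟩ = ⟨g' ^ n, n, zpow_natCast g' n⟩ :=
    fun n => zpowersEquivZPowers_apply ho n
  have hsc : SemiconjBy γ (MulAut.conjNormal g) (MulAut.conjNormal g') := by
    ext u
    exact congrArg Subtype.val (hγ u)
  have hpow : ∀ (n : ℕ) (u : P), γ (MulAut.conjNormal (g ^ n) u) =
      MulAut.conjNormal (g' ^ n) (γ u) := by
    intro n u
    have h1 := hsc.pow_right n
    rw [← map_pow, ← map_pow] at h1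
    exact DFunLike.congr_fun h1 u
  let c := SemidirectProduct.congr
    (φ₁ := (P.normalizerMonoidHom).comp (Subgroup.inclusion (P.normalizer_eq_top ▸ le_top)))
    (φ₂ := (P.normalizerMonoidHom).comp (Subgroup.inclusion (P.normalizer_eq_top ▸ le_top)))
    γ fg (by
      intro k
      obtain ⟨n, rfl⟩ := hnat k
      ext u
      rw [hfg]
      exact congrArg Subtype.val (hpow n u))
  let e := SemidirectProduct.mulEquivSubgroup hc
  let e' := SemidirectProduct.mulEquivSubgroup hc'
  refine ⟨e.symm.trans (c.trans e'), ?_, ?_⟩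
  · have h1 : e.symm g = SemidirectProduct.inr ⟨g ^ 1, 1, zpow_natCast g 1⟩ := by
      rw [MulEquiv.symm_apply_eq]
      simp [e]
    show e' (c (e.symm g)) = g'
    rw [h1]
    have h2 : c (SemidirectProduct.inr ⟨g ^ 1, 1, zpow_natCast g 1⟩) =
        SemidirectProduct.inr (fg ⟨g ^ 1, 1, zpow_natCast g 1⟩) := by
      ext <;> simp [c]
    rw [h2, hfg]
    simp [e']
  · intro u
    have h1 : e.symm u = SemidirectProduct.inl u := by
      rw [MulEquiv.symm_apply_eq]
      simp [e]
    show e' (c (e.symm u)) = γ u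
    rw [h1]
    have h2 : c (SemidirectProduct.inl u) = SemidirectProduct.inl (γ u) := by
      ext <;> simp [c]
    rw [h2]
    simp [e']

end Cfsg.Agent.Lib.Helper22
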