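import Mathlib
import Cfsg.Agent.Lib.Helper22.Kazarin
import Cfsg.Agent.Lib.Helper21.TwoClosed
import Cfsg.Agent.Lib.Helper20.Primary
import Cfsg.Agent.Lib.Helper12.Cores
import Cfsg.Agent.S0044

/-!
# Consequences of Kazarin's theorem
-/

set_option autoImplicit false
set_option linter.unusedSectionVars false
set_option linter.style.haveILetI false

namespace Cfsg.Agent.Lib.Helper22

open Subgroup

variable {G : Type*} [Group G]

/-- a solvable normal subgroup meets the centraliser of the Fitting subgroup inside the Fitting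
subgroup. -/
theorem centralizer_fitting_inf_le [Finite G] (S : Subgroup G) [hSn : S.Normal]
    [hSs : Group.IsSolvable S] :
    centralizer (Cfsg.fittingSubgroup G : Set G) ⊓ S ≤ Cfsg.fittingSubgroup G := by
  obtain ⟨F, hF⟩ : ∃ F, F = Cfsg.fittingSubgroup G := ⟨_, rfl⟩
  rw [← hF]
  have hFn : F.Normal := by
    rw [hF, Cfsg.fittingSubgroup]
    exact Subgroup.sSup_normal _ (fun H hH => hH.1)
  obtain ⟨C, hC⟩ : ∃ C, C = centralizer (F : Set G) ⊓ S := ⟨_, rfl⟩
  rw [← hC]
  have hCn : C.Normal := by rw [hC]; infer_instance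
  let D : ℕ → Subgroup G := Cfsg.Agent.S0044.dser C
  have hD0 : D 0 = C := rfl
  have hDs : ∀ n, D (n+1) = ⁅D n, D n⁆ := fun n => rfl
  have hDn : ∀ n, (D n).Normal := by
    intro n
    induction n with
    | zero => exact hCn
    | succ n ih => rw [hDs]; exact Subgroup.commutator_normal (D n) (D n)
  have hDC : ∀ n, D n ≤ C := by
    intro n
    induction n with
    | zero => exact le_rfl
    | succ n ih =>
      rw [hDs]
      have := hDn n
      exact (Subgroup.commutator_le_left _ _).trans ih
  have hDder : ∀ n, D n ≤ (derivedSeries S n).map S.subtype := by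
    intro n
    induction n with
    | zero =>
      rw [hD0, derivedSeries_zero, ← MonoidHom.range_eq_map, Subgroup.range_subtype, hC]
      exact inf_le_right
    | succ n ih =>
      rw [hDs, derivedSeries_succ, Subgroup.map_commutator]
      exact Subgroup.commutator_mono ih ih
  have step : ∀ n, D (n+1) ≤ F → D n ≤ F := by
    intro n h
    have h3 : ⁅⁅D n, D n⁆, D n⁆ = ⊥ := by
      rw [Subgroup.commutator_eq_bot_iff_le_centralizer]
      rw [← hDs]
      intro x hx
      rw [Subgroup.mem_centralizer_iff]
      intro y hy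
      have hyC : y ∈ centralizer (F : Set G) := by
        have := hDC n hy
        rw [hC] at this
        exact this.1
      rw [Subgroup.mem_centralizer_iff] at hyC
      exact (hyC x (h hx)).symm
    have hnil := Cfsg.Agent.S0044.nilpotent_of_comm3 (D n) h3
    rw [hF, Cfsg.fittingSubgroup]
    exact le_sSup ⟨hDn n, hnil⟩
  obtain ⟨n, hn⟩ := (Group.isSolvable_def S).mp hSs
  have hall : ∀ k, k ≤ n → D (n - k) ≤ F := by
    intro k
    induction k with
    | zero =>
      intro _
      have := hDder n
      rw [hn, Subgroup.map_bot] at this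
      simpa using this.trans bot_le
    | succ k ih =>
      intro hk
      apply step
      have : n - (k+1) + 1 = n - k := by omega
      rw [this]
      exact ih (by omega)
  have := hall n le_rfl
  simpa [hD0] using this

theorem exists_index_centralizer_quotient [Finite G] {p k : ℕ} (hp : p.Prime) (S : Subgroup G)
    [S.Normal] {x : G} (hx : (centralizer ({x} : Set G)).index = p ^ k) :
    ∃ j, (centralizer ({(x : G ⧸ S)} : Set (G ⧸ S))).index = p ^ j := by
  have h1 : (centralizer ({x} : Set G)).map (QuotientGroup.mk' S) ≤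
      centralizer ({(x : G ⧸ S)} : Set (G ⧸ S)) := by
    rintro _ ⟨c, hc, rfl⟩
    rw [mem_centralizer_singleton_iff]
    have hc' : c * x = x * c := mem_centralizer_singleton_iff.1 hc
    simp only [QuotientGroup.mk'_apply]
    rw [← QuotientGroup.mk_mul, ← QuotientGroup.mk_mul, hc']
  have h2 := (index_dvd_of_le h1).trans
    (index_map_dvd (centralizer ({x} : Set G)) (QuotientGroup.mk'_surjective S))
  rw [hx] at h2
  obtain ⟨j, -, hj⟩ := (Nat.dvd_prime_pow hp).1 h2
  exact ⟨j, hj⟩

/-- a normal `p'`-subgroup is centralised by every element of `p`-power index -/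
theorem le_centralizer_of_coprime_of_index [Finite G] {p k : ℕ} (hp : p.Prime) (F : Subgroup G)
    [F.Normal] (hF : (Nat.card F).Coprime p) {y : G}
    (hy : (centralizer ({y} : Set G)).index = p ^ k) : F ≤ centralizer ({y} : Set G) := by
  rw [← relIndex_eq_one]
  exact Nat.eq_one_of_dvd_coprimes (k := (centralizer ({y} : Set G)).relIndex F)
    (a := Nat.card F) (b := p ^ k) (Nat.Coprime.pow_right k hF)
    (relIndex_dvd_card _ _) (hy ▸ relIndex_dvd_index_of_normal_right F _)

/-- If `O_p(G) = 1`, two elements of `p`-power index, one of which is conjugate ... commute. -/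
theorem commute_of_index_of_pCore_eq_bot [Finite G] {p : ℕ} [Fact p.Prime]
    (hO : Cfsg.pCore p G = ⊥) {y z : G} {k l : ℕ}
    (hy : (centralizer ({y} : Set G)).index = p ^ k)
    (hz : (centralizer ({z} : Set G)).index = p ^ l) : y * z = z * y := by
  have hp : p.Prime := Fact.out
  haveI hFn : (Cfsg.fittingSubgroup G).Normal := Cfsg.Agent.Lib.Helper20.fitting_normal
  have hFc : (Nat.card (Cfsg.fittingSubgroup G)).Coprime p := by
    rw [Nat.coprime_comm, Nat.Prime.coprime_iff_not_dvd hp]
    intro h
    obtain ⟨u, hu⟩ := exists_prime_orderOf_dvd_card' p h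
    have h1 : (u : G) ∈ Cfsg.pCore p G :=
      Cfsg.Agent.Lib.Helper20.mem_pCore_of_mem_fitting u.2 ⟨1, by rw [Subgroup.orderOf_coe, hu, pow_one]⟩
    rw [hO, mem_bot] at h1
    have h2 : u = 1 := Subtype.ext h1
    rw [h2, orderOf_one] at hu
    exact hp.one_lt.ne hu
  have h1 := le_centralizer_of_coprime_of_index hp _ hFc hy
  have h2 := le_centralizer_of_coprime_of_index hp _ hFc hz
  haveI := kazarin hp y k hy
  have h3 : y ∈ centralizer (Cfsg.fittingSubgroup G : Set G) ⊓ normalClosure ({y} : Set G) := by
    refine mem_inf.2 ⟨?_, subset_normalClosure (Set.mem_singleton y)⟩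
    rw [mem_centralizer_iff]
    intro f hf
    exact mem_centralizer_singleton_iff.1 (h1 hf)
  have h4 := centralizer_fitting_inf_le _ h3
  exact mem_centralizer_singleton_iff.1 (h2 h4)

/-- elements of `p`-power index commute modulo `O_p(G)`. -/
theorem commutator_mem_pCore_of_index [Finite G] {p : ℕ} [Fact p.Prime] {y z : G} {k l : ℕ}
    (hy : (centralizer ({y} : Set G)).index = p ^ k)
    (hz : (centralizer ({z} : Set G)).index = p ^ l) : y * z * y⁻¹ * z⁻¹ ∈ Cfsg.pCore p G := by
  have hp : p.Prime := Fact.out
  haveI := Cfsg.Agent.Lib.Helper12.pCore_normal p G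
  obtain ⟨k', hy'⟩ := exists_index_centralizer_quotient hp (Cfsg.pCore p G) hy
  obtain ⟨l', hz'⟩ := exists_index_centralizer_quotient hp (Cfsg.pCore p G) hz
  have h := commute_of_index_of_pCore_eq_bot (Cfsg.Agent.Lib.Helper21.pCore_quotient_eq_bot p) hy' hz'
  rw [← QuotientGroup.eq_one_iff, QuotientGroup.mk_mul, QuotientGroup.mk_mul, QuotientGroup.mk_mul,
    QuotientGroup.mk_inv, QuotientGroup.mk_inv, h]
  group

end Cfsg.Agent.Lib.Helper22
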