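import Mathlib
import Cfsg.Agent.Lib.Helper1.SylowSystem

set_option autoImplicit false

/-!
# Representations spanned by one orbit
-/

namespace Cfsg.Agent.Lib.Helper22

open Subgroup MulAction

theorem exists_smul_eq_of_coprime {B X : Type*} [Group B] [Finite B] [MulAction B X]
    (K : Subgroup B) (a : X)
    (h : K.index.Coprime (Nat.card (MulAction.orbit B a))) (x : B) : ∃ y ∈ K, y • a = x • a := by
  have h1 : (stabilizer B a).index = Nat.card (orbit B a) := by
    rw [MulAction.index_stabilizer]; rfl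
  obtain ⟨y, hy, s, hs, rfl⟩ :=
    Cfsg.Agent.Lib.Helper1.exists_mul_of_coprime_index K (stabilizer B a) (h1 ▸ h) x
  exact ⟨y, hy, by rw [mul_smul, mem_stabilizer_iff.1 hs]⟩

section

variable {k V H : Type*} [Field k] [AddCommGroup V] [Module k V] [Group H] [Finite H]
  (ρ : Representation k H V) (a : V)

open Classical in
/-- the orbit of `a` as a finset -/
noncomputable def orbFinset : Finset V :=
  letI := Fintype.ofFinite H
  Finset.univ.image (fun h : H => ρ h a)

theorem mem_orbFinset {u : V} : u ∈ orbFinset ρ a ↔ ∃ h : H, ρ h a = u := by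
  classical
  simp [orbFinset]

/-- the sum of the orbit of `a` -/
noncomputable def orbSum : V := ∑ u ∈ orbFinset ρ a, u

theorem orbSum_fixed (g : H) : ρ g (orbSum ρ a) = orbSum ρ a := by
  classical
  rw [orbSum, map_sum]
  apply Finset.sum_nbij' (fun u => ρ g u) (fun u => ρ g⁻¹ u)
  · intro u hu
    obtain ⟨h, rfl⟩ := (mem_orbFinset ρ a).1 hu
    exact (mem_orbFinset ρ a).2 ⟨g * h, by simp⟩
  · intro u hu
    obtain ⟨h, rfl⟩ := (mem_orbFinset ρ a).1 hu
    exact (mem_orbFinset ρ a).2 ⟨g⁻¹ * h, by simp⟩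
  · intro u _
    simp
  · intro u _
    simp
  · intro u _
    rfl

theorem sum_subgroup_eq (B : Subgroup H) [Fintype B]
    (htr : ∀ h : H, ∃ x ∈ B, ρ x a = ρ h a) :
    ∃ n : ℕ, ∑ x : B, ρ (x : H) a = n • orbSum ρ a := by
  classical
  refine ⟨(Finset.univ.filter (fun x : B => ρ (x : H) a = a)).card, ?_⟩
  have h1 := Finset.sum_comp (s := (Finset.univ : Finset B)) (fun u : V => u)
    (fun x : B => ρ (x : H) a)
  rw [h1, orbSum, Finset.smul_sum]
  have h2 : (Finset.univ : Finset B).image (fun x : B => ρ (x : H) a) = orbFinset ρ a := by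
    ext u
    rw [mem_orbFinset]
    constructor
    · intro hu
      obtain ⟨x, -, rfl⟩ := Finset.mem_image.1 hu
      exact ⟨x, rfl⟩
    · rintro ⟨h, rfl⟩
      obtain ⟨x, hx, hxa⟩ := htr h
      exact Finset.mem_image.2 ⟨⟨x, hx⟩, Finset.mem_univ _, hxa⟩
  rw [h2]
  apply Finset.sum_congr rfl
  intro u hu
  obtain ⟨h, rfl⟩ := (mem_orbFinset ρ a).1 hu
  obtain ⟨x, hx, hxa⟩ := htr h
  congr 1
  apply Finset.card_nbij' (fun y : B => (⟨x, hx⟩ : B)⁻¹ * y) (fun y : B => (⟨x, hx⟩ : B) * y)
  · intro y hy
    simp only [Finset.coe_filter, Finset.mem_univ, true_and, Set.mem_ofPred_eq] at hy ⊢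
    rw [← hxa] at hy
    simp only [Subgroup.coe_mul, InvMemClass.coe_inv, map_mul, Module.End.mul_apply, hy]
    rw [← Module.End.mul_apply, ← map_mul]
    simp
  · intro y hy
    simp only [Finset.coe_filter, Finset.mem_univ, true_and, Set.mem_ofPred_eq] at hy ⊢
    simp only [Subgroup.coe_mul, map_mul, Module.End.mul_apply, hy, hxa]
  · intro y _
    simp
  · intro y _
    simp

/-- If the orbit of `a` spans `V`, and `B` is a subgroup of invertible order which is transitive on
the orbit of `a`, every vector fixed by `B` is a multiple of the orbit sum. -/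
theorem mem_span_orbSum (hspan : Submodule.span k {u : V | ∃ h : H, ρ h a = u} = ⊤)
    (B : Subgroup H) (hB : (Nat.card B : k) ≠ 0)
    (htr : ∀ h : H, ∃ x ∈ B, ρ x a = ρ h a) (v : V) (hv : ∀ x ∈ B, ρ x v = v) :
    v ∈ Submodule.span k {orbSum ρ a} := by
  classical
  have := Fintype.ofFinite B
  obtain ⟨n, hn⟩ := sum_subgroup_eq ρ a B htr
  let s : V →ₗ[k] V := ∑ x : B, ρ (x : H)
  have hs : ∀ w : V, s w ∈ Submodule.span k {orbSum ρ a} := by
    intro w
    have hw : w ∈ Submodule.span k {u : V | ∃ h : H, ρ h a = u} := by rw [hspan]; trivial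
    have hle : Submodule.span k {u : V | ∃ h : H, ρ h a = u} ≤
        (Submodule.span k {orbSum ρ a}).comap s := by
      rw [Submodule.span_le]
      rintro _ ⟨h, rfl⟩
      obtain ⟨x, hx, hxa⟩ := htr h
      change s (ρ h a) ∈ Submodule.span k {orbSum ρ a}
      have h3 : s (ρ h a) = ∑ y : B, ρ (y : H) a := by
        rw [← hxa]
        simp only [s, LinearMap.sum_apply]
        rw [← Equiv.sum_comp (Equiv.mulRight (⟨x, hx⟩ : B)) (fun y : B => ρ (y : H) a)]
        apply Finset.sum_congr rfl
        intro y _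
        simp
      rw [h3, hn]
      exact Submodule.smul_of_tower_mem _ n (Submodule.mem_span_singleton_self _)
    exact hle hw
  have h4 : s v = (Nat.card B : k) • v := by
    simp only [s, LinearMap.sum_apply]
    rw [Finset.sum_congr rfl (fun (x : B) _ => hv x x.2)]
    simp [Nat.card_eq_fintype_card, Nat.cast_smul_eq_nsmul]
  have h5 : v = (Nat.card B : k)⁻¹ • s v := by
    rw [h4, smul_smul, inv_mul_cancel₀ hB, one_smul]
  rw [h5]
  exact Submodule.smul_mem _ _ (hs v)

theorem fixed_of_mem_span_orbSum {v : V} (hv : v ∈ Submodule.span k {orbSum ρ a}) (g : H) :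
    ρ g v = v := by
  obtain ⟨c, rfl⟩ := Submodule.mem_span_singleton.1 hv
  rw [map_smul, orbSum_fixed]

theorem finrank_invariants_le_one
    (h : ∀ v : V, (∀ g : H, ρ g v = v) → v ∈ Submodule.span k {orbSum ρ a}) :
    Module.finrank k ρ.invariants ≤ 1 := by
  have hle : ρ.invariants ≤ Submodule.span k {orbSum ρ a} := by
    intro v hv
    exact h v (fun g => (Representation.mem_invariants ρ v).1 hv g)
  calc Module.finrank k ρ.invariants ≤ Module.finrank k (Submodule.span k {orbSum ρ a}) :=
        Submodule.finrank_mono hle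
    _ ≤ 1 := by
        have := finrank_span_le_card (R := k) ({orbSum ρ a} : Set V)
        simpa using this

end

end Cfsg.Agent.Lib.Helper22
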